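import Cfsg.Agent.H36.SimBrSpec
import Cfsg.Agent.H57.PslOut

/-! S3694 (tower SIM), slot BR-L: the diagonal action on `PSL`. -/

set_option autoImplicit false

namespace H67.SimBrL

open Subgroup Cfsg _root_.H98 Matrix H0.Sim H36.SimBr H57

variable {n : ℕ} {F : Type} [Field F]

theorem mem_gam (q : ℕ) (c : GL (Fin n) F) : c ∈ Gam n F false q := mem_top c

/-- The diagonal action. -/
def del (n : ℕ) (F : Type) [Field F] (q : ℕ) : Gam n F false q →* MulAut (PL n F) :=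
  (pslDiag (Fin n) F).comp (Gam n F false q).subtype

/-- The automorphism induced by `j`. -/
def eta (j : Jm n F) : MulAut (PL n F) :=
  pslDiag (Fin n) F j.c * pslField (Fin n) F j.σ * (if j.a then pslGraph (Fin n) F else 1)

theorem del_range (q : ℕ) : (del n F q).range = (pslDiag (Fin n) F).range := by
  ext x
  exact ⟨fun ⟨c, e⟩ => ⟨c, e⟩, fun ⟨c, e⟩ => ⟨⟨c, mem_gam q c⟩, e⟩⟩

theorem eta_con (j : Jm n F) (c : GL (Fin n) F) :
    eta j * pslDiag (Fin n) F c * (eta j)⁻¹ = pslDiag (Fin n) F (al j c) := by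
  obtain ⟨g, σ, a⟩ := j
  rw [mul_inv_eq_iff_eq_mul]
  cases a
  · simp only [eta, al, Bool.false_eq_true, if_false, mul_one, MulAut.mul_apply, MulAut.conj_apply,
      map_mul, map_inv]
    rw [mul_assoc, pslField_mul_pslDiag]
    group
  · simp only [eta, al, if_true, MulAut.mul_apply, MulAut.conj_apply, map_mul, map_inv]
    rw [mul_assoc, pslGraph_mul_pslDiag, mul_assoc, ← mul_assoc (pslField (Fin n) F σ),
      pslField_mul_pslDiag]
    group

theorem px_pow {i j : Fin n} (hij : i ≠ j) (k : ℕ) : px hij (1 : F) ^ k = px hij (k : F) := by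
  induction k with
  | zero => rw [pow_zero, Nat.cast_zero, px_zero]
  | succ k ih => rw [pow_succ, ih, Nat.cast_succ, px_add]

theorem chr [Fintype F] (h2 : 2 ≤ n) : ringChar F ∣ Nat.card (Inn (PL n F)) := by
  obtain ⟨i, j, hij⟩ : ∃ i j : Fin n, i ≠ j := ⟨⟨0, by omega⟩, ⟨1, by omega⟩, by simp⟩
  haveI : Fact (ringChar F).Prime := ⟨CharP.char_is_prime F _⟩
  have h1 : MulAut.conj (px hij (1 : F)) ≠ 1 := by
    rw [← pslDiag_toGL, Ne, pslDiag_eq_one_iff]
    rintro ⟨c, e⟩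
    have : (Matrix.scalar (Fin n) (c : F)) i j =
        (1 + single i j (1 : F) : Matrix (Fin n) (Fin n) F) i j :=
      congrArg (fun g : GL (Fin n) F => (g : Matrix (Fin n) (Fin n) F) i j) e
    simp [hij] at this
  have h3 : MulAut.conj (px hij (1 : F)) ^ ringChar F = 1 := by
    rw [← map_pow, px_pow, CharP.cast_eq_zero, px_zero, map_one]
  rw [← orderOf_eq_prime h3 h1]
  exact (Inn (PL n F)).orderOf_dvd_natCard ⟨_, rfl⟩

theorem idx [Fintype F] (h2 : 2 ≤ n) : ∃ r f : ℕ, r.Prime ∧ Fintype.card F = r ^ f ∧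
    (pslDiag (Fin n) F).range.index ≤ 2 * f := by
  obtain ⟨f, hr, hF⟩ := FiniteField.card F (ringChar F)
  haveI := Fact.mk hr
  have hc := card_ringAut_finite_field hF
  haveI : Finite (RingAut F) := Finite.of_injective (fun e : RingAut F => (e : F → F))
    DFunLike.coe_injective
  refine ⟨_, f, hr, hF, ?_⟩
  rcases h2.eq_or_lt with rfl | h3
  · obtain ⟨π, hk, -⟩ := exists_aut_psl_two_proj (F := F)
    rw [← hk, index_ker]
    have := π.range.card_le_card_group
    omega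
  · obtain ⟨π, hk, -⟩ := exists_aut_psl_proj (F := F) (n := n) h3
    rw [← hk, index_ker]
    have := π.range.card_le_card_group
    rw [Nat.card_prod, hc, Nat.card_congr Multiplicative.toAdd, Nat.card_zmod] at this
    omega

theorem instL : InstL := by
  intro n F _ _ q P
  refine ⟨del n F q, eta, ⟨fun c => ?_, fun x => ?_, fun x => ?_, fun j _ c => ?_, fun c => ?_,
    ?_, chr P.two⟩, by rw [del_range, inndiagPSL_eq_range]⟩
  · change (c : GL (Fin n) F) ∈ (pslDiag (Fin n) F).ker ↔ _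
    rw [ker_pslDiag]
    exact ⟨fun h => ⟨c.2, h⟩, fun h => h.2⟩
  · rw [inn_psl_eq]
    exact ⟨fun ⟨s, hs, e⟩ => ⟨⟨s, mem_gam q s⟩, ⟨mem_gam q s, hs⟩, e⟩,
      fun ⟨s, hs, e⟩ => ⟨s, hs.2, e⟩⟩
  · obtain ⟨g, σ, h | ⟨h3, h⟩⟩ := psl_aut x
    · exact ⟨⟨g, σ, false⟩, ⟨mem_gam q g, fun h => absurd h Bool.false_ne_true⟩, by
        rw [h]; exact mul_one _⟩
    · exact ⟨⟨g, σ, true⟩, ⟨mem_gam q g, fun _ => ⟨rfl, h3⟩⟩, h.symm⟩
  · exact ⟨⟨al j c, mem_gam q _⟩, rfl, eta_con j c⟩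
  · change pslDiag (Fin n) F c * pslField (Fin n) F 1 * 1 = pslDiag (Fin n) F c
    rw [map_one, mul_one, mul_one]
  · obtain ⟨r, f, hr, hF, h⟩ := idx (F := F) P.two
    exact ⟨r, f, hr, P.card.symm.trans hF, by rw [del_range]; exact h⟩

end H67.SimBrL
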