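import Cfsg.Agent.H52.SimXSSpec

/-! S3694 (tower SIM), chapter XS, slot K. -/

set_option autoImplicit false

namespace H67.SimXSK

open Subgroup Cfsg _root_.H98 Matrix H0.Sim H52.XS
open scoped commutatorElement

theorem job : JobK := by
  intro n F _ _ Z E P hx hP y hy
  obtain ⟨T, hT, -, -, hs⟩ := hP.sum
  haveI : Nonempty (Fin n) := ⟨⟨0, hx.pos⟩⟩
  obtain ⟨x, hxT, h0⟩ : ∃ x ∈ T, P (((x⁻¹ : GL (Fin n) F) : Mt n F) * (y : Mt n F)) ≠ 0 := by
    by_contra hh
    push Not at hh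
    refine y.ne_zero ?_
    rw [hs y]
    exact Finset.sum_eq_zero fun x hx => by rw [hh x hx, mul_zero]
  have hxE := hT x hxT
  have zc : ∀ z ∈ Z, ∀ g : GL (Fin n) F, g * z = z * g := fun z hz g => by
    obtain ⟨c, hc⟩ := hx.Zc z hz
    refine Units.ext ?_
    rw [Units.val_mul, Units.val_mul, hc]
    exact (Matrix.scalar_commute c (fun r => Commute.all c r) _).symm.eq
  obtain ⟨m, hm⟩ : ∃ m : GL (Fin n) F, m = x⁻¹ * y := ⟨_, rfl⟩
  rw [← Units.val_mul, ← hm] at h0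
  have hc : ∀ e ∈ E, ⁅e, m⁆ ∈ Z := fun e he => by
    have e1 : ⁅e, m⁆ = ⁅e, x⁻¹⁆ * (x⁻¹ * ⁅e, y⁆ * x) := by
      rw [hm]; simp only [commutatorElement_def]; group
    rw [e1, zc _ (hy e he), inv_mul_cancel_right]
    exact Z.mul_mem (hx.cm e he _ (E.inv_mem hxE)) (hy e he)
  have h1 := hP.sub (Submodule.span F {(m : Mt n F)}) (fun e he w hw => by
    obtain ⟨a, rfl⟩ := Submodule.mem_span_singleton.1 hw
    obtain ⟨c, h⟩ := hx.Zc _ (hc e he)
    have e1 : e * m * e⁻¹ = ⁅e, m⁆ * m := by simp only [commutatorElement_def]; group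
    rw [mul_smul_comm, smul_mul_assoc, ← Units.val_mul, ← Units.val_mul, e1, Units.val_mul, h,
      Matrix.scalar_apply, ← Matrix.smul_eq_diagonal_mul]
    exact Submodule.smul_mem _ _ (Submodule.smul_mem _ _ (Submodule.mem_span_singleton_self _)))
    _ (Submodule.mem_span_singleton_self _)
  obtain ⟨a, ha⟩ := Submodule.mem_span_singleton.1 h1
  have ha0 : a ≠ 0 := by
    rintro rfl
    exact h0 (by rw [← ha, zero_smul])
  have h2 : (m : Mt n F) ∈ CE E := by
    have := (CE E).smul_mem (hP.mem m) a⁻¹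
    rwa [← ha, smul_smul, inv_mul_cancel₀ ha0, one_smul] at this
  refine ⟨x, hxE, hm ▸ fun e he => Units.ext ?_⟩
  exact (Subalgebra.mem_centralizer_iff F).1 h2 e ⟨e, he, rfl⟩

end H67.SimXSK
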