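/- Element orders of the Chevalley groups of type F4: annihilating polynomials of the elements
of the Weyl group and some tori. -/
import Cfsg.Agent.H67.TorSpec
import Cfsg.Agent.H65.All

set_option autoImplicit false
set_option linter.unusedSectionVars false

namespace H67

open Cfsg.Lie H63 H64 H65 H46 H55.Syl Matrix

/-- Integral vectors of length four. -/
abbrev V4 : Type := ℤ × ℤ × ℤ × ℤ

/-- A vector as a tuple. -/
def tv4 (v : Fin 4 → ℤ) : V4 := (v 0, v 1, v 2, v 3)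

/-- The scalar product. -/
def dot4 (a b : V4) : ℤ := a.1 * b.1 + a.2.1 * b.2.1 + a.2.2.1 * b.2.2.1 + a.2.2.2 * b.2.2.2

/-- A vector times the matrix with the given rows. -/
def vm4 (a b c d x : V4) : V4 :=
  (dot4 x (a.1, b.1, c.1, d.1), dot4 x (a.2.1, b.2.1, c.2.1, d.2.1),
    dot4 x (a.2.2.1, b.2.2.1, c.2.2.1, d.2.2.1), dot4 x (a.2.2.2, b.2.2.2, c.2.2.2, d.2.2.2))

/-- Evaluation of the entries before use. -/
def frc4 (x : V4) (f : V4 → Bool) : Bool :=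
  forceZ x.1 fun a => forceZ x.2.1 fun b => forceZ x.2.2.1 fun c => forceZ x.2.2.2 fun d =>
    f (a, b, c, d)

theorem frc4_eq (x : V4) (f : V4 → Bool) : frc4 x f = f x := by simp only [frc4, forceZ_eq]

/-- The orbit segment of a vector. -/
def seg4 (a b c d x : V4) (f : V4 → V4 → V4 → Bool) : Bool :=
  frc4 (vm4 a b c d x) fun y => frc4 (vm4 a b c d y) fun z => frc4 (vm4 a b c d z) fun u => f y z u

/-- A monic polynomial of degree four annihilates a vector. -/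
def ann4 (P e x y z u : V4) : Bool := decide (vm4 e x y z P + u = 0)

/-- One of the monic polynomials annihilates the matrix. -/
def leaf4 (Ps : List V4) (a b c d : V4) : Bool :=
  seg4 a b c d a fun a2 a3 a4 => seg4 a b c d b fun b2 b3 b4 => seg4 a b c d c fun c2 c3 c4 =>
  seg4 a b c d d fun d2 d3 d4 => Ps.any fun P => ann4 P (1, 0, 0, 0) a a2 a3 a4 &&
    (ann4 P (0, 1, 0, 0) b b2 b3 b4 && (ann4 P (0, 0, 1, 0) c c2 c3 c4 &&
      ann4 P (0, 0, 0, 1) d d2 d3 d4))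

/-- Enumeration of the isometries of a root system of rank four. -/
def dfs4 (R : List (V4 × V4)) (G : Matrix (Fin 4) (Fin 4) ℤ) (f : V4 → V4 → V4 → V4 → Bool) :
    Bool :=
  allMem (fun a => !decide (dot4 a.1 a.2 = G 0 0) ||
    allMem (fun b => !(decide (dot4 a.1 b.2 = G 0 1) && decide (dot4 b.1 b.2 = G 1 1)) ||
    allMem (fun c => !(decide (dot4 a.1 c.2 = G 0 2) && (decide (dot4 b.1 c.2 = G 1 2) &&
      decide (dot4 c.1 c.2 = G 2 2))) ||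
    allMem (fun d => !(decide (dot4 a.1 d.2 = G 0 3) && (decide (dot4 b.1 d.2 = G 1 3) &&
      (decide (dot4 c.1 d.2 = G 2 3) && decide (dot4 d.1 d.2 = G 3 3)))) ||
      f a.1 b.1 c.1 d.1) R) R) R) R

theorem dfs4_sound {R : List (V4 × V4)} {G : Matrix (Fin 4) (Fin 4) ℤ}
    {f : V4 → V4 → V4 → V4 → Bool} (h : dfs4 R G f = true) (s : Fin 4 → V4 × V4)
    (h1 : ∀ i, s i ∈ R) (h2 : ∀ i j, dot4 (s i).1 (s j).2 = G i j) :
    f (s 0).1 (s 1).1 (s 2).1 (s 3).1 = true := by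
  simp only [dfs4, allMem_iff, Bool.or_eq_true, Bool.not_eq_true', Bool.and_eq_false_iff,
    decide_eq_false_iff_not] at h
  have := h _ (h1 0)
  simp only [h2, not_true, false_or] at this
  have := this _ (h1 1)
  simp only [h2, not_true, false_or] at this
  have := this _ (h1 2)
  simp only [h2, not_true, false_or] at this
  simpa only [h2, not_true, false_or] using this _ (h1 3)

theorem tv4_vecMul (M : Matrix (Fin 4) (Fin 4) ℤ) (v : Fin 4 → ℤ) :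
    vm4 (tv4 (M 0)) (tv4 (M 1)) (tv4 (M 2)) (tv4 (M 3)) (tv4 v) = tv4 (v ᵥ* M) := by
  simp [vm4, dot4, tv4, vecMul, dotProduct, Fin.sum_univ_four]

theorem leaf4_sound {Ps : List V4} {M : Matrix (Fin 4) (Fin 4) ℤ}
    (h : leaf4 Ps (tv4 (M 0)) (tv4 (M 1)) (tv4 (M 2)) (tv4 (M 3)) = true) :
    ∃ P ∈ Ps, polyR [P.1, P.2.1, P.2.2.1, P.2.2.2, 1] M = 0 := by
  simp only [leaf4, seg4, frc4_eq, tv4_vecMul, List.any_eq_true, Bool.and_eq_true, ann4,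
    decide_eq_true_eq] at h
  obtain ⟨P, hP, h⟩ := h
  refine ⟨P, hP, ?_⟩
  have e : polyR [P.1, P.2.1, P.2.2.1, P.2.2.2, 1] M = P.1 • 1 + P.2.1 • M + P.2.2.1 • (M * M) +
      P.2.2.2 • (M * M * M) + M * M * M * M := by
    simp only [polyR, List.foldr, zsmul_eq_mul]; push_cast; noncomm_ring
  have e2 : ∀ (N : Matrix (Fin 4) (Fin 4) ℤ) i, N i ᵥ* M = (N * M) i := fun N i => rfl
  simp only [e2, vm4, dot4, tv4, Prod.mk_add_mk, Prod.mk_eq_zero] at h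
  rw [e]
  obtain ⟨⟨h1, h2, h3, h4⟩, ⟨h5, h6, h7, h8⟩, ⟨h9, h10, h11, h12⟩, h13, h14, h15, h16⟩ := h
  ext i j
  simp only [Matrix.add_apply, Matrix.smul_apply, smul_eq_mul, Matrix.zero_apply]
  fin_cases i <;> fin_cases j <;> assumption

/-- The roots of type F4 with their duals. -/
def rtsF4 : List (V4 × V4) :=
  [((-2, -4, -3, -2), (0, 0, 0, -2)), ((-2, -4, -3, -1), (0, 0, -2, 2)),
   ((-2, -4, -2, -1), (0, -2, 2, 0)), ((-2, -3, -2, -1), (-1, 0, 0, 0)),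
   ((-2, -2, -2, -1), (-2, 2, -2, 0)), ((-2, -2, -1, -1), (-2, 0, 2, -2)),
   ((-2, -2, -1, 0), (-2, 0, 0, 2)), ((-1, -3, -2, -1), (1, -1, 0, 0)),
   ((-1, -2, -2, -1), (0, 1, -2, 0)), ((-1, -2, -1, -1), (0, -1, 2, -2)),
   ((-1, -2, -1, 0), (0, -1, 0, 2)), ((-1, -1, -1, -1), (-1, 1, 0, -2)),
   ((-1, -1, -1, 0), (-1, 1, -2, 2)), ((-1, -1, 0, 0), (-1, -1, 2, 0)),
   ((-1, 0, 0, 0), (-2, 1, 0, 0)), ((0, -2, -2, -1), (2, 0, -2, 0)),
   ((0, -2, -1, -1), (2, -2, 2, -2)), ((0, -2, -1, 0), (2, -2, 0, 2)),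
   ((0, -1, -1, -1), (1, 0, 0, -2)), ((0, -1, -1, 0), (1, 0, -2, 2)),
   ((0, -1, 0, 0), (1, -2, 2, 0)), ((0, 0, -1, -1), (0, 2, -2, -2)),
   ((0, 0, -1, 0), (0, 2, -4, 2)), ((0, 0, 0, -1), (0, 0, 2, -4)), ((0, 0, 0, 1), (0, 0, -2, 4)),
   ((0, 0, 1, 0), (0, -2, 4, -2)), ((0, 0, 1, 1), (0, -2, 2, 2)), ((0, 1, 0, 0), (-1, 2, -2, 0)),
   ((0, 1, 1, 0), (-1, 0, 2, -2)), ((0, 1, 1, 1), (-1, 0, 0, 2)), ((0, 2, 1, 0), (-2, 2, 0, -2)),
   ((0, 2, 1, 1), (-2, 2, -2, 2)), ((0, 2, 2, 1), (-2, 0, 2, 0)), ((1, 0, 0, 0), (2, -1, 0, 0)),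
   ((1, 1, 0, 0), (1, 1, -2, 0)), ((1, 1, 1, 0), (1, -1, 2, -2)), ((1, 1, 1, 1), (1, -1, 0, 2)),
   ((1, 2, 1, 0), (0, 1, 0, -2)), ((1, 2, 1, 1), (0, 1, -2, 2)), ((1, 2, 2, 1), (0, -1, 2, 0)),
   ((1, 3, 2, 1), (-1, 1, 0, 0)), ((2, 2, 1, 0), (2, 0, 0, -2)), ((2, 2, 1, 1), (2, 0, -2, 2)),
   ((2, 2, 2, 1), (2, -2, 2, 0)), ((2, 3, 2, 1), (1, 0, 0, 0)), ((2, 4, 2, 1), (0, 2, -2, 0)),
   ((2, 4, 3, 1), (0, 0, 2, -2)), ((2, 4, 3, 2), (0, 0, 0, 2))]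

theorem dfsF4 : dfs4 rtsF4 !![2, -1, 0, 0; -1, 2, -2, 0; 0, -2, 4, -2; 0, 0, -2, 4]
    (leaf4 [(-1, 0, 0, 0), (-1, -1, 0, 1), (-1, 1, 0, -1), (1, 0, 0, 0), (1, 0, -1, 0)]) = true := by
  decide +kernel

theorem exists_ann_F4 (w : (H64.wdata chevF4).W) :
    ∃ P ∈ [((-1, 0, 0, 0) : V4), (-1, -1, 0, 1), (-1, 1, 0, -1), (1, 0, 0, 0), (1, 0, -1, 0)],
      polyR [P.1, P.2.1, P.2.2.1, P.2.2.2, 1] (Wm w.1) = 0 := by
  have h1 : ∀ r : Rt chevF4, ∀ s : Rt chevF4, form (rt r) (rt s) =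
      dot4 (tv4 (rt r)) (rtsF4.getD s 0).2 := by decide +kernel
  have h2 : ∀ r : Rt chevF4, (rtsF4.getD r 0).1 = tv4 (rt r) ∧ rtsF4.getD r 0 ∈ rtsF4 := by
    decide +kernel
  have h3 : ∀ z : Fin 4 × Fin 4, form (rt (simpleR (D := chevF4) z.1)) (rt (simpleR z.2)) =
      !![2, -1, 0, 0; -1, 2, -2, 0; 0, -2, 4, -2; 0, 0, -2, 4] z.1 z.2 := by decide +kernel
  obtain ⟨f, h4, h5⟩ := isLin_W w
  have := dfs4_sound dfsF4 (fun i => rtsF4.getD (w.1 (simpleR i)) 0) (fun i => (h2 _).2)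
    fun i j => by rw [(h2 _).1, ← h1, h4, h4, h5]; exact h3 (i, j)
  simp only [(h2 _).1] at this
  exact leaf4_sound (M := Wm w.1) this

attribute [local instance] H65.tabF4 H65.commF4

variable {F : Type*} [Field F] [Fintype F] (p : ℕ) [hp : Fact p.Prime] [CharP F p]

theorem f4_orderOf_dvd {q : ℕ} (hq : Fintype.card F = q) (g : ↥(chevF4.group F)) :
    (∃ a, (orderOf g : ℤ) ∣ p ^ a * (q ^ 4 - 1) ∨
      (orderOf g : ℤ) ∣ p ^ a * ((q ^ 2 - 1) * (q ^ 2 + q + 1)) ∨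
      (orderOf g : ℤ) ∣ p ^ a * ((q ^ 2 - 1) * (q ^ 2 - q + 1))) ∨
    (orderOf g : ℤ) ∣ q ^ 4 + 1 ∨ (orderOf g : ℤ) ∣ q ^ 4 - q ^ 2 + 1 := by
  have hk := kerF4.cker_eq_bot (AlgebraicClosure F)ˣ
  obtain ⟨c, w, u, e, a, -, he, hce, hua, hu, hc, hw, hg⟩ := exists_jordan hk p g
  rw [hq] at hc
  obtain ⟨P, hP, h⟩ := exists_ann_F4 w
  have hq1 : (2 : ℤ) ≤ q := by exact_mod_cast hq ▸ Fintype.one_lt_card
  have h1 : ∀ m : ℤ, 0 ≤ m → m = polyR [P.1, P.2.1, P.2.2.1, P.2.2.2, 1] (q : ℤ) →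
      c ^ m.natAbs = 1 := fun m h0 e =>
    pow_eq_one_of_ann hk hc h (by rw [← e, Int.natAbs_of_nonneg h0])
  have h2 : ∀ m : ℤ, c ^ m.natAbs = 1 → (orderOf g : ℤ) ∣ p ^ a * m := fun m h => by
    rw [Int.natCast_dvd, Int.natAbs_mul, Int.natAbs_pow, Int.natAbs_natCast]
    exact orderOf_dvd_of_jordan hu hg (by rw [mul_comm, pow_mul, h, one_pow])
      (by rw [pow_mul, hua, one_pow])
  have h3 : ∀ (n : ℕ) (m : ℤ), Wm w.1 ^ n = -1 → c ^ m.natAbs = 1 → (orderOf g : ℤ) ∣ m := by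
    intro n m hn h
    have : u = 1 := by
      rwa [Uc, Set.eq_empty_of_forall_notMem (s := {r | Pos r ∧ chi chevF4 c r = 1}) fun r hr =>
        chi_ne_one_of_neg (isLin_W w) hc hw hn hr.1 hr.2, gen_empty, Subgroup.mem_bot] at hu
    rw [Int.natCast_dvd]
    exact orderOf_dvd_of_jordan hu hg h (by rw [this, one_pow])
  have q2 : (q : ℤ) ≤ q ^ 2 := by nlinarith
  have q4 : (q : ℤ) ^ 2 ≤ q ^ 4 := by nlinarith
  simp only [List.mem_cons, List.not_mem_nil, or_false] at hP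
  rcases hP with rfl | rfl | rfl | rfl | rfl
  · exact .inl ⟨a, .inl (h2 _ (h1 _ (by omega) (by simp [polyR]; ring)))⟩
  · exact .inl ⟨a, .inr (.inl (h2 _ (h1 _ (mul_nonneg (by omega) (by omega))
      (by simp [polyR]; ring))))⟩
  · exact .inl ⟨a, .inr (.inr (h2 _ (h1 _ (mul_nonneg (by omega) (by omega))
      (by simp [polyR]; ring))))⟩
  · refine .inr (.inl (h3 4 _ ?_ (h1 _ (by omega) (by simp [polyR]; ring))))
    rw [← sub_eq_zero, ← h]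
    simp only [polyR, List.foldr]; push_cast; noncomm_ring
  · refine .inr (.inr (h3 6 _ ?_ (h1 _ (by omega) (by simp [polyR]; ring))))
    rw [← sub_eq_zero, ← mul_zero (Wm w.1 ^ 2 + 1), ← h]
    simp only [polyR, List.foldr]; push_cast; noncomm_ring

theorem f4_exists_mul {q : ℕ} (hq : Fintype.card F = q) {N : ℕ} (hN : (N : F) ≠ 0)
    (h : (N : ℤ) ∣ q ^ 2 - 1 ∨ (N : ℤ) ∣ q ^ 2 + 1 ∨ (N : ℤ) ∣ q ^ 3 - 1 ∨ (N : ℤ) ∣ q ^ 3 + 1) :
    ∃ g : ↥(chevF4.group F), orderOf g = p * N := by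
  subst hq
  have hk := kerF4.cker_eq_bot (AlgebraicClosure F)ˣ
  rcases h with h | h | h | h
  · exact exists_orderOf_cert_root hk p (L := [0]) (ph := 2)
      (M := [[-1, 1, 0, 0], [0, 1, 0, 0], [0, 0, 1, 0], [0, 0, 0, 1]])
      (Z := [[-1, -1, 0, 0], [0, -1, 0, 0]]) (X := [-1, 0, 0, 0]) (P := [-1, 0, 1]) (r := 47)
      (by decide +kernel) (by decide +kernel) (by decide +kernel) (h.trans (dvd_of_eq (by
        simp [pv_eq, Finset.sum_range_succ]; ring))) hN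
  · exact exists_orderOf_cert_root hk p (L := [1, 2]) (ph := 2)
      (M := [[1, 0, 0, 0], [1, 1, -1, 1], [0, 2, -1, 1], [0, 0, 0, 1]])
      (Z := [[0, -1, -1, 0], [0, 0, -1, 0]]) (X := [0, -1, 0, 0]) (P := [1, 0, 1]) (r := 47)
      (by decide +kernel) (by decide +kernel) (by decide +kernel) (h.trans (dvd_of_eq (by
        simp [pv_eq, Finset.sum_range_succ]; ring))) hN
  · exact exists_orderOf_cert_root hk p (L := [0, 1]) (ph := 3)
      (M := [[0, -1, 1, 0], [1, -1, 1, 0], [0, 0, 1, 0], [0, 0, 0, 1]])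
      (Z := [[-1, -1, -1, 0], [0, -1, -1, 0], [0, 0, -1, 0]]) (X := [-1, 0, 0, 0]) (P := [-1, 0, 0, 1]) (r := 47)
      (by decide +kernel) (by decide +kernel) (by decide +kernel) (h.trans (dvd_of_eq (by
        simp [pv_eq, Finset.sum_range_succ]; ring))) hN
  · exact exists_orderOf_cert_root hk p (L := [0, 1, 2]) (ph := 3)
      (M := [[0, 1, -1, 1], [1, 1, -1, 1], [0, 2, -1, 1], [0, 0, 0, 1]])
      (Z := [[-1, -1, -1, 0], [0, -1, -1, 0], [0, 0, -1, 0]]) (X := [-1, 0, 0, 0]) (P := [1, 0, 0, 1]) (r := 47)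
      (by decide +kernel) (by decide +kernel) (by decide +kernel) (h.trans (dvd_of_eq (by
        simp [pv_eq, Finset.sum_range_succ]; ring))) hN

theorem f4_exists {q : ℕ} (hq : Fintype.card F = q) {N : ℕ} (hN : (N : F) ≠ 0)
    (h : (N : ℤ) ∣ q ^ 4 + 1 ∨ (N : ℤ) ∣ q ^ 4 - q ^ 2 + 1) :
    ∃ g : ↥(chevF4.group F), orderOf g = N := by
  subst hq
  have hk := kerF4.cker_eq_bot (AlgebraicClosure F)ˣ
  rcases h with h | h
  · exact exists_orderOf_cert hk (L := [0, 1, 2, 1, 2, 3]) (ph := 4)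
      (M := [[1, -1, 1, -1], [2, -1, 1, -1], [2, 0, 1, -2], [0, 0, 1, -1]])
      (Z := [[1, 1, 1, 1], [0, 1, 1, 0], [0, 0, 1, 1], [0, 0, -1, 0]]) (X := [1, 0, 0, 0])
      (P := [1, 0, 0, 0, 1]) (by decide +kernel) (by decide +kernel) (h.trans (dvd_of_eq (by
        simp [pv_eq, Finset.sum_range_succ]; ring))) hN
  · exact exists_orderOf_cert hk (L := [0, 1, 2, 3]) (ph := 4)
      (M := [[0, 1, 0, -1], [1, 1, 0, -1], [0, 2, 0, -1], [0, 0, 1, -1]])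
      (Z := [[0, 0, 0, 1], [-1, -1, -1, -1], [0, -1, -1, -1], [0, 0, -1, 0]]) (X := [0, -1, 0, 1])
      (P := [1, 0, -1, 0, 1]) (by decide +kernel) (by decide +kernel) (h.trans (dvd_of_eq (by
        simp [pv_eq, Finset.sum_range_succ]; ring))) hN

theorem f4_exists_two {q : ℕ} (hq : Fintype.card F = q) {N N' : ℕ} (hN : (N : F) ≠ 0)
    (hN' : (N' : F) ≠ 0) (hc : N.Coprime N')
    (h : ((N : ℤ) ∣ q + 1 ∧ (N' : ℤ) ∣ q ^ 2 + q + 1) ∨ ((N : ℤ) ∣ q - 1 ∧ (N' : ℤ) ∣ q ^ 2 - q + 1) ∨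
      ((N : ℤ) ∣ q ^ 2 - 1 ∧ (N' : ℤ) ∣ q ^ 2 + 1)) :
    ∃ g : ↥(chevF4.group F), orderOf g = N * N' := by
  subst hq
  have hk := kerF4.cker_eq_bot (AlgebraicClosure F)ˣ
  rcases h with h | h | h
  · exact exists_orderOf_cert2 hk (L := [0, 1, 3]) (ph := 1) (ph' := 2)
      (M := [[0, -1, 1, 0], [1, -1, 1, 0], [0, 0, 1, 0], [0, 0, 1, -1]])
      (Z := [[0, 0, 0, -1]]) (X := [0, 0, 0, -1]) (P := [1, 1])
      (Z' := [[0, 1, 0, 0], [-1, 0, 0, 0]]) (X' := [0, 1, 0, 0]) (P' := [1, 1, 1])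
      (by decide +kernel) (by decide +kernel) (by decide +kernel) (h.1.trans (dvd_of_eq (by
        simp [pv_eq, Finset.sum_range_succ]; ring))) (h.2.trans (dvd_of_eq (by
        simp [pv_eq, Finset.sum_range_succ]; ring))) hN hN' hc
  · exact exists_orderOf_cert2 hk (L := [0, 2, 1, 2, 3]) (ph := 1) (ph' := 2)
      (M := [[0, 1, 0, -1], [1, 1, 0, -1], [2, 0, 1, -2], [0, 0, 1, -1]])
      (Z := [[-1, -2, -2, -1]]) (X := [-1, 0, 0, 0]) (P := [-1, 1])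
      (Z' := [[1, 2, 4, 2], [-1, -1, -2, 0]]) (X' := [-1, 1, 0, 0]) (P' := [1, -1, 1])
      (by decide +kernel) (by decide +kernel) (by decide +kernel) (h.1.trans (dvd_of_eq (by
        simp [pv_eq, Finset.sum_range_succ]; ring))) (h.2.trans (dvd_of_eq (by
        simp [pv_eq, Finset.sum_range_succ]; ring))) hN hN' hc
  · exact exists_orderOf_cert2 hk (L := [1, 2, 1, 2, 3]) (ph := 2) (ph' := 2)
      (M := [[1, 0, 0, 0], [2, -1, 1, -1], [2, 0, 1, -2], [0, 0, 1, -1]])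
      (Z := [[-1, -2, -2, -1], [-1, -1, -2, -1]]) (X := [0, -1, 0, 1]) (P := [-1, 0, 1])
      (Z' := [[0, -1, -2, -1], [0, 0, 0, -1]]) (X' := [0, -1, 0, 0]) (P' := [1, 0, 1])
      (by decide +kernel) (by decide +kernel) (by decide +kernel) (h.1.trans (dvd_of_eq (by
        simp [pv_eq, Finset.sum_range_succ]; ring))) (h.2.trans (dvd_of_eq (by
        simp [pv_eq, Finset.sum_range_succ]; ring))) hN hN' hc

end H67
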