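import Cfsg.Agent.H11.FBSpec

/-!
# S3404 tower FB: job TH2
-/

set_option autoImplicit false

namespace H67.FbTH2

open MulAction Subgroup H11.FB

universe u v

theorem fixedPoints_zpowers {G : Type u} {Ω : Type v} [Group G] [MulAction G Ω] (h : G) :
    fixedPoints (zpowers h) Ω = fixedBy Ω h := by
  ext ω
  constructor
  · intro hω
    exact hω ⟨h, mem_zpowers h⟩
  · intro hω x
    have : zpowers h ≤ stabilizer G ω := (zpowers_le).2 hω
    exact this x.2

theorem conj_zpow_of_mem {G : Type u} [Group G] {h g : G}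
    (hg : g ∈ normalizer (zpowers h : Set G)) : ∃ i : ℤ, g * h * g⁻¹ = h ^ i := by
  have := (mem_normalizer_iff.1 hg h).1 (mem_zpowers h)
  obtain ⟨i, hi⟩ := mem_zpowers_iff.1 this
  exact ⟨i, hi.symm⟩

theorem comm_cent {G : Type u} [Group G] {h g g' : G}
    (hg : g ∈ normalizer (zpowers h : Set G)) (hg' : g' ∈ normalizer (zpowers h : Set G)) :
    ((g' * g)⁻¹ * (g * g')) * h = h * ((g' * g)⁻¹ * (g * g')) := by
  obtain ⟨i, hi⟩ := conj_zpow_of_mem hg
  obtain ⟨j, hj⟩ := conj_zpow_of_mem hg'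
  have e1 : g * g' * h * (g * g')⁻¹ = h ^ (i * j) := by
    calc g * g' * h * (g * g')⁻¹ = g * (g' * h * g'⁻¹) * g⁻¹ := by group
      _ = (g * h * g⁻¹) ^ j := by rw [hj, conj_zpow]
      _ = h ^ (i * j) := by rw [hi, ← zpow_mul]
  have e2 : g' * g * h * (g' * g)⁻¹ = h ^ (i * j) := by
    calc g' * g * h * (g' * g)⁻¹ = g' * (g * h * g⁻¹) * g'⁻¹ := by group
      _ = (g' * h * g'⁻¹) ^ i := by rw [hi, conj_zpow]
      _ = h ^ (i * j) := by rw [hj, ← zpow_mul, mul_comm]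
  calc ((g' * g)⁻¹ * (g * g')) * h
      = (g' * g)⁻¹ * (g * g' * h * (g * g')⁻¹) * (g * g') := by group
    _ = (g' * g)⁻¹ * (g' * g * h * (g' * g)⁻¹) * (g * g') := by rw [e1, e2]
    _ = h * ((g' * g)⁻¹ * (g * g')) := by group

theorem jobTH2 : H11.FB.JobTH2.{u, v} := by
  intro G Ω _ _ _ _ _ a b c d K H hy h hh _ t2 t1
  have hf := fixedPoints_zpowers (Ω := Ω) h
  have hL := mem_L4.1 (hy.fr.Hle hh)
  have ha : a ∈ fixedBy Ω h := hL.1
  have hb : b ∈ fixedBy Ω h := hL.2.1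
  have hc : c ∈ fixedBy Ω h := hL.2.2.1
  have hd : d ∈ fixedBy Ω h := hL.2.2.2
  refine ⟨fun hcard hcen g hg => ?_, fun hcard σ hσ hout => ?_⟩
  · let M : Subgroup G := normalizer (zpowers h : Set G) ⊓ centralizer {h}
    have memM : ∀ m, m ∈ M ↔ m ∈ normalizer (zpowers h : Set G) ∧ m * h = h * m := by
      intro m
      rw [mem_inf, mem_centralizer_singleton_iff]
    have hnm : Nm (normalizer (zpowers h : Set G)) M := by
      intro n hn x hx
      obtain ⟨hx1, hx2⟩ := (memM x).1 hx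
      refine (memM _).2 ⟨mul_mem (mul_mem hn hx1) (inv_mem hn), ?_⟩
      obtain ⟨i, hi⟩ := conj_zpow_of_mem (inv_mem hn)
      have e : x * h ^ i = h ^ i * x := ((Commute.zpow_right (show Commute x h from hx2) i)).eq
      calc n * x * n⁻¹ * h = n * (x * (n⁻¹ * h * n⁻¹⁻¹)) * n⁻¹ := by group
        _ = n * ((n⁻¹ * h * n⁻¹⁻¹) * x) * n⁻¹ := by rw [hi, e]
        _ = h * (n * x * n⁻¹) := by group
    rcases t2.simp (hf ▸ hcard) M inf_le_left hnm with htriv | hcov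
    · exfalso
      obtain ⟨n1, n2, n3, n4, n5, n6⟩ := hy.ne
      obtain ⟨g1, hg1, e1, e2, e3, -⟩ := t1.tr a b c d a c b d hy.ne
        ⟨n2, n1, n3, n4.symm, n6, n5⟩ ha hb hc hd ha hc hb hd
      obtain ⟨g2, hg2, f1, f2, f3, -⟩ := t1.tr a b c d b a c d hy.ne
        ⟨n1.symm, n4, n5, n2, n3, n6⟩ ha hb hc hd hb ha hc hd
      have hm : (g2 * g1)⁻¹ * (g1 * g2) ∈ M :=
        (memM _).2 ⟨mul_mem (inv_mem (mul_mem hg2 hg1)) (mul_mem hg1 hg2), comm_cent hg1 hg2⟩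
      have := htriv _ hm a (hf ▸ ha)
      rw [mul_smul, inv_smul_eq_iff, mul_smul, mul_smul, f1, e2, e1, f1] at this
      exact n4 this.symm
    · obtain ⟨m, hm, e⟩ := hcov g hg
      obtain ⟨hm1, hm2⟩ := (memM m).1 hm
      have k : ∀ ω ∈ fixedBy Ω h, (m⁻¹ * g) • ω = ω := fun ω hω => by
        rw [mul_smul, inv_smul_eq_iff, e ω (hf ▸ hω)]
      have hl : m⁻¹ * g ∈ L4 G a b c d := mem_L4.2 ⟨k a ha, k b hb, k c hc, k d hd⟩
      have hH := (t1.nl _ hl).1 (mul_mem (inv_mem hm1) hg)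
      have e2 := hcen _ hH
      calc g * h = m * (m⁻¹ * g * h) := by group
        _ = m * h * (m⁻¹ * g) := by rw [e2]; group
        _ = h * g := by rw [hm2]; group
  · have := t2.alt (hf ▸ hcard) σ hσ (hf ▸ hout)
    rwa [hf] at this

end H67.FbTH2
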