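/- Elements of order five in the twisted group of type E6 over the field with four elements:
generic tools and the rational class of order five in the torus. -/
import Cfsg.Agent.H67.InvJobs

set_option autoImplicit false

namespace H67.T5

open Cfsg Cfsg.Lie H63 H64 H65 H46 H67.Sub

section Gen

variable {D : ChevalleyDatum} [RS D] {K : Type*} [Field K] {G : Type*} [Group G] {x : ℕ → K → G}
  {τ : (Fin D.rank → Kˣ) →* G}

/-- `δ` permutes the root elements along `u` and squares the parameter. -/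
structure F2 (x : ℕ → K → G) (δ : G →* G) (u : Rt D → Rt D) : Prop where
  two : (2 : K) = 0
  map_x : ∀ (r : Rt D) (t : K), δ (x r t) = x (u r) (t ^ 2)
  neg : ∀ r, u (negR r) = negR (u r)

variable {δ : G →* G} {u : Rt D → Rt D}

theorem neg_eq_of_two (h : (2 : K) = 0) (t : K) : -t = t := by linear_combination -t * h

theorem eq_one_of_two (h : (2 : K) = 0) {η : K} (e : η * η = 1) : η = 1 := by
  rcases mul_self_eq_one_iff.1 e with e | e
  · exact e
  · rw [e, neg_eq_of_two h]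

theorem F2.map_nn (f : F2 x δ u) (r : Rt D) (t : K) : δ (nn D x r t) = nn D x (u r) (t ^ 2) := by
  rw [nn_eq, nn_eq, map_mul, map_mul, f.map_x, ← negR_val, f.map_x, f.neg, negR_val,
    neg_eq_of_two f.two, neg_eq_of_two f.two, inv_pow]

theorem F2.map_HH (f : F2 x δ u) {g : G} (hg : g ∈ HH D x) : δ g ∈ HH D x := by
  refine (Subgroup.closure_le ((HH D x).comap δ)).2 ?_ hg
  rintro _ ⟨r, t, ht, rfl⟩
  have := hh_mem_HH D x (u r) (pow_ne_zero 2 ht)
  rw [hh_eq, neg_eq_of_two f.two] at this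
  rwa [SetLike.mem_coe, Subgroup.mem_comap, hh_eq, map_mul, f.map_nn, f.map_nn, neg_one_sq]

theorem F2.map_gen (f : F2 x δ u) (h : St D x) {A B : Set (Rt D)} (hA : ∀ r ∈ A, u r ∈ B)
    {g : G} (hg : g ∈ gen (XR D x) A) : δ g ∈ gen (XR D x) B := by
  have : gen (XR D x) A ≤ (gen (XR D x) B).comap δ := gen_le fun r hr y hy => by
    obtain ⟨t, rfl⟩ := h.mem_XR.1 hy
    rw [Subgroup.mem_comap, f.map_x]
    exact le_gen _ (hA r hr) (x_mem_XR D x _ _)
  exact this hg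

theorem F2.map_sup (f : F2 x δ u) (h : St D x) {A : Set (Rt D)} (hA : ∀ r ∈ A, u r ∈ A)
    {g : G} (hg : g ∈ gen (XR D x) A ⊔ HH D x) : δ g ∈ gen (XR D x) A ⊔ HH D x :=
  (sup_le (fun _ hu => Subgroup.mem_sup_left (f.map_gen h hA hu))
    (fun _ hu => Subgroup.mem_sup_right (f.map_HH hu)) :
      _ ≤ (gen (XR D x) A ⊔ HH D x).comap δ) hg

theorem F2.chi_eq (f : F2 x δ u) (hτ : TorOK D x τ) (h : StB D x) {c c' : Fin D.rank → Kˣ}
    (e : δ (τ c) = τ c') (r : Rt D) : chi D c' (u r) = chi D c r ^ 2 := by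
  have h3 := congrArg δ (hτ.conj h.toStN c r 1)
  rw [map_mul, map_mul, map_inv, e, f.map_x, f.map_x, hτ.conj h.toStN] at h3
  have := h.x_injective _ h3
  simp only [one_pow, mul_one] at this
  exact Units.ext (by simpa using this)

theorem F2.conj_n (f : F2 x δ u) (h : StN D x) (i : Fin D.rank) :
    F2 x ((MulAut.conj (nn D x (D.simple i) 1)).toMonoidHom.comp δ) fun r => sref i (u r) where
  two := f.two
  map_x r t := by
    obtain ⟨η, h1, h2⟩ := h.n1conj i (u r) i.2 (u r).2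
    change nn D x (D.simple i) 1 * δ (x r t) * (nn D x (D.simple i) 1)⁻¹ = _
    rw [f.map_x, (h2 _).1, eq_one_of_two f.two h1, one_mul, mul_inv_cancel_right]; rfl
  neg r := by
    rw [f.neg]
    exact (H64.wdata D).s_neg i (u r)

/-- Fixed points in a subsystem subgroup all of whose roots are fixed. -/
theorem F2.fix_sub [IsAlgClosed K] (f : F2 x δ u) (h : StB D x) {Ψ : Set (Rt D)} (c : Cl Ψ)
    (hu : ∀ r ∈ Ψ, u r = r) {A : Subgroup G} (hA : ∀ r ∈ Ψ, x r 1 ∈ A) {g : G}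
    (hg : g ∈ gen (XR D x) Ψ ⊔ HH D x) (hf : δ g = g) :
    ∃ a ∈ A, ∃ y ∈ HH D x, δ y = y ∧ g = a * y := by
  have gd : Good Ψ 1 := ⟨c, isLin_one, fun _ h => h, fun _ _ h => h, fun _ _ => Or.inl rfl,
    fun _ _ h => absurd rfl h⟩
  have hx : ∀ r ∈ Ψ, ∀ t, δ (x r t) = x r (t ^ 2) := fun r hr t => by rw [f.map_x, hu r hr]
  let S : H68.TwG (gd.cl.rgd h) gd.tw :=
    { σ := δ
      map_mul := fun a _ b _ => map_mul δ a b
      map_X := fun r y hy => by
        obtain ⟨t, rfl⟩ := h.toSt.mem_XR.1 hy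
        rw [hx _ r.2]
        exact x_mem_XR D x r.1 _
      map_H := fun _ => f.map_HH
      map_n := fun i => by
        change (nn D x i.1 1)⁻¹ * δ (nn D x i.1 1) ∈ HH D x
        rw [f.map_nn, hu _ i.2.1, one_pow, inv_mul_cancel]
        exact one_mem _
      nontriv := fun o => by
        obtain ⟨a, rfl⟩ := gd.tw.orb_surj o
        refine ⟨x (negR a.1) 1, ?_, fun e => one_ne_zero (h.x_injective (negR a.1)
          (e.trans (h.toSt.x_zero _).symm)), by rw [hx _ (c.neg _ a.2.1), one_pow]⟩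
        have := gd.nu_mem_VJ h (Frob.id (x := x)) a 1 1
        simpa [nu] using this }
  have hX : ∀ r ∈ Ψ, XR D x r ⊓ S.Fix ≤ A := fun r hr y hy => by
    obtain ⟨t, rfl⟩ := h.toSt.mem_XR.1 hy.1
    have e : t ^ 2 = t := h.x_injective r ((hx r hr t).symm.trans hy.2.2)
    rcases eq_zero_or_one_of_sq_eq_self e with rfl | rfl
    · rw [h.toSt.x_zero]; exact one_mem _
    · exact hA r hr
  have hone : ∀ (o : gd.Orb) (a b : SR (Sim Ψ)), gd.tw.orb a = o → gd.tw.orb b = o → a = b :=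
    fun o a b ha hb => by
      rcases gd.orb_cases (Quotient.exact (ha.trans hb.symm)) with e | e | e <;> exact e.symm
  have hK : K0 S ≤ A := by
    refine K0_le (fun o => ?_) fun o => ?_
    · obtain ⟨a, rfl⟩ := gd.tw.orb_surj o
      refine le_trans (inf_le_inf_right _ (gen_le fun r hr => ?_)) (hX a.1 a.2.1)
      obtain ⟨b, h1, h2⟩ := gd.eq_of_inJ hr.2
      obtain rfl := hone _ b a h1 rfl
      rcases h2 with h2 | h2
      · rw [Cl.rgd_X, h2]
      · exact absurd (h2 ▸ c.rd_pos.1 hr.1) (pos_negR.not.2 (not_not.2 b.2.2.1))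
    · obtain ⟨a, rfl⟩ := gd.tw.orb_surj o
      refine le_trans (inf_le_inf_right _ (gen_le fun r hr => ?_)) (hX _ (c.neg _ a.2.1))
      obtain ⟨b, h1, h2⟩ := gd.eq_of_inJ hr.2
      obtain rfl := hone _ b a h1 rfl
      rcases h2 with h2 | h2
      · exact absurd (c.rd_pos.2 (h2 ▸ b.2.2.1)) hr.1
      · rw [Cl.rgd_X, h2]
  obtain ⟨k, hk, y, hy, rfl⟩ := exists_K0_mul (S := S) ⟨(c.rgd_Gp h).symm ▸ hg, hf⟩
  exact ⟨k, hK hk, y, hy.1, hy.2.2, rfl⟩

theorem exists_conj_of_W (hτ : TorOK D x τ) (h : StB D x) (hk : ∀ d ∈ cker D Kˣ, τ d = 1)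
    (w : (H64.wdata D).W) {c c' : Fin D.rank → Kˣ} (e : ∀ r, chi D c (w.1 r) = chi D c' r) :
    ∃ m, m * τ c * m⁻¹ = τ c' := by
  obtain ⟨m, hm, hw⟩ := h.rgd.exists_mem_N_act w
  obtain ⟨d, hd⟩ := hτ.exists h.toStN (h.rgd.conj_H (inv_mem hm) (hτ.mem h.toStN c))
  have := hτ.chi_conj h hm hw (c := d) (c' := c) (by rw [hd]; group)
  exact ⟨m⁻¹, hd.symm.trans (tor_eq_of_chi hk fun r => (this r).symm.trans (e r))⟩

theorem cl_chi (c : Fin D.rank → Kˣ) : Cl {r : Rt D | chi D c r = 1} where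
  neg r hr := by rw [Set.mem_setOf_eq, chi_negR, hr, inv_one]
  comb r hr s hs v i j _ _ e := by
    rw [Set.mem_setOf_eq, chi_of_comb c e, hr, hs, one_zpow, one_zpow, mul_one]

theorem comm_of_chi (hτ : TorOK D x τ) (h : StN D x) {c : Fin D.rank → Kˣ} {S : Set (Rt D)}
    (hS : ∀ r ∈ S, chi D c r = 1) {g : G} (hg : g ∈ gen (XR D x) S ⊔ HH D x) :
    g * τ c = τ c * g :=
  Subgroup.mem_centralizer_singleton_iff.1 (CP_le hτ h c (sup_le_sup_right (gen_mono _ hS) _ hg))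

/-- The word of simple reflections. -/
def wl (L : List (Fin D.rank)) : (H64.wdata D).W := (L.map (H64.wdata D).sW).prod

theorem wl_apply (L : List (Fin D.rank)) (r : Rt D) : (wl L).1 r = L.foldr sref r := by
  induction L with
  | nil => rfl
  | cons i L ih => rw [List.foldr_cons, ← ih]; rfl

theorem exists_weak_dominant (hb : ∀ r : Rt D, |ht r| ≤ 20 ∧ ht r ≠ 0) (g : Fin D.rank → ℤ) :
    ∃ v : (H64.wdata D).W, ∀ i, 0 ≤ pr g (v.1 (simpleR i)) := by
  have e : ∀ r, pr ((100 : ℤ) • g + rho2 D) r = 100 * pr g r + 2 * ht r := fun r => by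
    rw [pr_add, pr_smul, pr_rho2]
  obtain ⟨v, hv⟩ := exists_dominant (g := (100 : ℤ) • g + rho2 D) fun r h => by
    have h1 := abs_le.1 (hb r).1
    have h2 := (hb r).2
    rw [e] at h
    omega
  refine ⟨v, fun i => ?_⟩
  have h1 := hv i
  have h2 := abs_le.1 (hb (v.1 (simpleR i))).1
  rw [e] at h1
  change 0 ≤ pr g (v.1 (simpleR i))
  omega

end Gen

section Tor

variable {D : ChevalleyDatum} [RS D] [Tab D] [Comm D] {F k : Type*} [Field F] [Field k]

theorem mapG_gen (φ : F →+* k) {S : Set (Rt D)} {g : ↥(D.group F)}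
    (hg : g ∈ gen (XR D (xG D F)) S) : mapG D φ g ∈ gen (XR D (xG D k)) S := by
  have : gen (XR D (xG D F)) S ≤ (gen (XR D (xG D k)) S).comap (mapG D φ) :=
    gen_le fun r hr y hy => by
      obtain ⟨t, rfl⟩ := (stBG (D := D) (k := F)).toSt.mem_XR.1 hy
      rw [Subgroup.mem_comap, mapG_xG]
      exact le_gen _ hr (x_mem_XR D _ _ _)
  exact this hg

theorem mapG_nw (φ : F →+* k) (l : List (Fin D.rank)) :
    mapG D φ ((stBG (D := D) (k := F)).rgd.nw l) = (stBG (D := D) (k := k)).rgd.nw l := by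
  induction l with
  | nil => exact map_one _
  | cons i l ih =>
    change mapG D φ (nn D (xG D F) (D.simple i) 1 * (stBG (D := D) (k := F)).rgd.nw l) =
      nn D (xG D k) (D.simple i) 1 * (stBG (D := D) (k := k)).rgd.nw l
    rw [map_mul, ih, nn_eq, nn_eq, map_mul, map_mul, mapG_xG, mapG_xG]
    simp

theorem exists_tor_of_mapG (φ : F →+* k) {g : ↥(D.group F)} {c : Fin D.rank → kˣ}
    (e : mapG D φ g = torG D k c) : ∃ d, torG D k c = torG D k (frT D φ d) := by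
  have hF := stBG (D := D) (k := F)
  have hk := stBG (D := D) (k := k)
  obtain ⟨w, a, ha, m, hm, b, hb, hw, rfl⟩ := bruhat hF.rgd (g := g)
    (by rw [hF.rgd_Gp, GG_xG]; trivial)
  obtain ⟨l, y, hy, rfl⟩ := hF.rgd.mem_N_iff.1 hm
  obtain ⟨d, rfl⟩ := (torOK_xG (D := D) (k := F)).exists hF.toStN hy
  obtain rfl : w = H67.wp (H64.wdata D).sW l :=
    hw.unique (by simpa using (hF.rgd.act_nw l).mul (hF.rgd.act_H hy))
  have hH := (torOK_xG (D := D) (k := k)).mem hk.toStN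
  obtain ⟨h1, -, h2, -⟩ := bruhat_unique (T := hk.rgd) (mapG_gen φ ha) (one_mem _)
    (mul_mem (hk.rgd.nw_mem_N l) (hk.rgd.H_le_N (hH (frT D φ d)))) (hk.rgd.H_le_N (hH c))
    (mapG_gen φ hb) (one_mem _) (by simpa using (hk.rgd.act_nw l).mul (hk.rgd.act_H (hH _)))
    (hk.rgd.act_H (hH c)) (by
      rw [one_mul, mul_one, ← e, map_mul, map_mul, map_mul, mapG_torG, mapG_nw])
  obtain ⟨d', hd'⟩ := (torOK_xG (D := D) (k := F)).exists hF.toStN (hF.rgd.nw_mem_H l h1)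
  refine ⟨d' * d, ?_⟩
  rw [← h2, ← mapG_nw φ, ← hd', mapG_torG, map_mul, map_mul]

end Tor

/-- The quadratic character modulo five. -/
def lg (m : ℤ) : ℤ := if m % 5 = 0 then 0 else if m % 5 = 1 ∨ m % 5 = 4 then 1 else -1

theorem lg_congr {a b : ℤ} (h : (a - b) % 5 = 0) : lg a = lg b := by
  have : a % 5 = b % 5 := by omega
  simp only [lg, this]

theorem lg_two (m : ℤ) : lg (2 * m) = -lg m := by
  have h : m % 5 = 0 ∨ m % 5 = 1 ∨ m % 5 = 2 ∨ m % 5 = 3 ∨ m % 5 = 4 := by omega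
  have h' : 2 * m % 5 = 2 * (m % 5) % 5 := by rw [Int.mul_emod, Int.mul_emod 2 (m % 5), Int.emod_emod]
  rcases h with h | h | h | h | h <;> simp only [lg, h', h] <;> decide

/-- The exponents of the standard element of order five. -/
def a0 : Fin chevE6.rank → ℤ := fun i => [1, 0, 0, 0, 0, 2].getD i 0

/-- A point of the alcove. -/
def mu (a b c d e f : ℕ) : Fin chevE6.rank → ℤ := fun i => ([a, b, c, d, e, f].getD i 0 : ℕ)

/-- The words carrying the three rational points to the standard one. -/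
def wds : List (List (Fin chevE6.rank)) :=
  [[0, 4, 3, 1, 2, 3, 4, 5, 4, 3, 1, 2, 0, 3, 4, 5], [0, 2, 0, 3, 2, 4, 3, 1, 5, 4, 3, 1, 2, 0, 3, 2],
    [0, 1, 2, 3, 1, 2, 0, 5, 4, 3, 1, 2, 3, 4]].map fun L : List (Fin 6) => L

/-- The property checked on the alcove. -/
def Pt (m : Fin chevE6.rank → ℤ) : Prop := ∑ r, lg (Lf m r) = 0 → (∀ i, m i % 5 = 0) ∨
  ∃ L ∈ wds, ∀ r, (Lf m (L.foldr sref r) - pr a0 r) % 5 = 0

noncomputable instance (m : Fin chevE6.rank → ℤ) : Decidable (Pt m) := by unfold Pt; infer_instance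

set_option synthInstance.maxSize 4000 in
set_option synthInstance.maxHeartbeats 400000 in
theorem cert : ∀ a < 6, ∀ b < 3, ∀ c < 3, ∀ d < 2, ∀ e < 3, ∀ f < 6,
    a + 2 * b + 2 * c + 3 * d + 2 * e + f ≤ 5 → Pt (mu a b c d e f) := by
  decide +kernel

theorem ht_E6 : ∀ r : Rt chevE6, |ht r| ≤ 20 ∧ ht r ≠ 0 := by decide +kernel

theorem rat_class (a : Fin chevE6.rank → ℤ) (h0 : ∑ r, lg (pr a r) = 0) :
    (∀ r, pr a r % 5 = 0) ∨ ∃ w : (H64.wdata chevE6).W, ∀ r, (pr a (w.1 r) - pr a0 r) % 5 = 0 := by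
  obtain ⟨y, hy⟩ := exists_pr_abs_le (E := 5) (by norm_num) a
  obtain ⟨v, hv⟩ := exists_weak_dominant ht_E6 (a + (5 : ℤ) • y)
  obtain ⟨b, hb⟩ := exists_pr_comp v (a + (5 : ℤ) • y)
  have hb' : ∀ r, pr b r = pr a (v.1 r) + 5 * pr y (v.1 r) := fun r => by
    rw [hb, pr_add, pr_smul]
  have hn : ∀ i, ∃ n : ℕ, pr b (simpleR i) = n := fun i =>
    Int.eq_ofNat_of_zero_le ((hb _).symm ▸ hv i)
  choose n hn using hn
  have hμ : ∀ r, pr b r = Lf (mu (n ⟨0, by decide⟩) (n ⟨1, by decide⟩) (n ⟨2, by decide⟩)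
      (n ⟨3, by decide⟩) (n ⟨4, by decide⟩) (n ⟨5, by decide⟩)) r := fun r => by
    rw [pr_lin, Lf]
    refine Finset.sum_congr rfl fun j hj => ?_
    rw [hn]
    congr 1
    clear hj
    revert j
    change ∀ j : Fin 6, _
    intro j
    fin_cases j <;> rfl
  have h71 : (n ⟨0, by decide⟩ + 2 * n ⟨1, by decide⟩ + 2 * n ⟨2, by decide⟩ + 3 * n ⟨3, by decide⟩ +
      2 * n ⟨4, by decide⟩ + n ⟨5, by decide⟩ : ℤ) ≤ 5 := by
    have h1 := (abs_le.1 (hy (v.1 ⟨71, by decide⟩))).2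
    rw [← hb, pr_lin] at h1
    simp only [hn] at h1
    refine le_of_eq_of_le ?_ h1
    have : ∀ j : Fin chevE6.rank, rt (D := chevE6) ⟨71, by decide⟩ j = [1, 2, 2, 3, 2, 1].getD j 0 := by
      decide +kernel
    simp only [this]
    change _ = ∑ j : Fin 6, _
    simp [Fin.sum_univ_six]
    rfl
  have hs : ∑ r, lg (pr b r) = 0 := by
    rw [← h0, ← Equiv.sum_comp v.1 fun r => lg (pr a r)]
    exact Finset.sum_congr rfl fun r _ => lg_congr (by rw [hb']; omega)
  simp only [hμ] at hs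
  rcases cert _ (by omega) _ (by omega) _ (by omega) _ (by omega) _ (by omega) _ (by omega)
    (by omega) hs with h | ⟨L, -, h⟩
  · refine Or.inl fun r => ?_
    have h1 := hb' ((v⁻¹).1 r)
    rw [H64.WData.apply_inv_apply, hμ] at h1
    have h2 : (5 : ℤ) ∣ Lf _ ((v⁻¹).1 r) :=
      Finset.dvd_sum fun j _ => Dvd.dvd.mul_left (Int.dvd_of_emod_eq_zero (h j)) _
    omega
  · refine Or.inr ⟨v * wl L, fun r => ?_⟩
    have h1 := h r
    rw [← hμ, ← wl_apply, hb'] at h1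
    change (pr a (v.1 ((wl L).1 r)) - _) % 5 = 0
    omega

end H67.T5
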